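import Mathlib
import Cfsg.Agent.Rec.Loc
import Cfsg.Agent.Inv.FzBasic

/-!
A standard subgroup and a conjugate: commuting involutions of the two centralisers.
-/

set_option autoImplicit false

namespace Cfsg.Agent.J1S.ZeroAux

open Cfsg.Agent.Rec Cfsg.Agent.Inv.Fz Subgroup

universe u


variable {G : Type u} [Group G]

theorem zp2 {x : G} (h : x * x = 1) : IsPGroup 2 (zpowers x) :=
  IsPGroup.of_card_dvd_pow (n := 1) (by
    rw [Nat.card_zpowers]; exact orderOf_dvd_of_pow_eq_one (by rw [pow_one, pow_two, h]))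

/-- A standard subgroup and its centraliser. -/
structure Pair (L K : Subgroup G) : Prop where
  cm : ∀ a ∈ L, ∀ k ∈ K, a * k = k * a
  inf : ∀ a ∈ L, a ∈ K → a = 1
  dec : ∀ t ∈ K, t * t = 1 → t ≠ 1 → ∀ g, g * t = t * g → ∃ a ∈ L, ∃ k ∈ K, g = a * k
  cc : ∀ a ∈ L, a * a = 1 → a ≠ 1 → ∀ c ∈ L, (∀ g ∈ L, g * a = a * g → g * c = c * g) → c = 1 ∨ c = a

variable {L K L' K' : Subgroup G}

theorem Pair.map (h : Pair L K) (φ : G ≃* G) : Pair (L.map φ.toMonoidHom) (K.map φ.toMonoidHom) := by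
  have m : ∀ {S : Subgroup G} {x : G}, φ x ∈ S.map φ.toMonoidHom ↔ x ∈ S := mem_map_iff_mem φ.injective
  have c : ∀ {x y : G}, φ x * φ y = φ y * φ x ↔ x * y = y * x := by
    intro x y; rw [← map_mul, ← map_mul, φ.injective.eq_iff]
  have s : ∀ {x : G}, φ x * φ x = 1 ↔ x * x = 1 := by
    intro x; rw [← map_mul, map_eq_one_iff φ φ.injective]
  have o : ∀ {x : G}, φ x = 1 ↔ x = 1 := map_eq_one_iff φ φ.injective
  refine ⟨φ.surjective.forall.2 fun a ha => φ.surjective.forall.2 fun k hk => c.2 (h.cm a (m.1 ha) k (m.1 hk)),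
    φ.surjective.forall.2 fun a ha hk => o.2 (h.inf a (m.1 ha) (m.1 hk)),
    φ.surjective.forall.2 fun t ht t2 t1 => φ.surjective.forall.2 fun g hg => ?_,
    φ.surjective.forall.2 fun a ha a2 a1 => φ.surjective.forall.2 fun b hb hc => ?_⟩
  · obtain ⟨a, ha, k, hk, rfl⟩ := h.dec t (m.1 ht) (s.1 t2) (mt o.2 t1) g (c.1 hg)
    exact ⟨_, m.2 ha, _, m.2 hk, map_mul _ _ _⟩
  · exact (h.cc a (m.1 ha) (s.1 a2) (mt o.2 a1) b (m.1 hb) fun g hg e => c.1 (hc _ (m.2 hg) (c.2 e))).imp o.2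
      (congrArg φ)

theorem Pair.uniq (h : Pair L K) {a a' k k' : G} (ha : a ∈ L) (ha' : a' ∈ L) (hk : k ∈ K) (hk' : k' ∈ K)
    (e : a * k = a' * k') : a = a' ∧ k = k' := by
  have h1 : a'⁻¹ * a = k' * k⁻¹ := by
    calc _ = a'⁻¹ * (a * k) * k⁻¹ := by group
      _ = _ := by rw [e]; group
  have h2 := h.inf _ (mul_mem (inv_mem ha') ha) (h1 ▸ mul_mem hk' (inv_mem hk))
  exact ⟨(inv_mul_eq_one.1 h2).symm, (mul_inv_eq_one.1 (h1 ▸ h2)).symm⟩

theorem Pair.comm (h : Pair L K) {a a' k k' : G} (ha : a ∈ L) (ha' : a' ∈ L) (hk : k ∈ K) (hk' : k' ∈ K)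
    (e : a * k * (a' * k') = a' * k' * (a * k)) : a * a' = a' * a ∧ k * k' = k' * k := by
  refine h.uniq (mul_mem ha ha') (mul_mem ha' ha) (mul_mem hk hk') (mul_mem hk' hk) ?_
  calc _ = a * (a' * k) * k' := by group
    _ = a' * (k' * a) * k := by rw [h.cm a' ha' k hk]; simpa only [mul_assoc] using e
    _ = _ := by rw [← h.cm a ha k' hk']; group

theorem Pair.sq (h : Pair L K) {a k : G} (ha : a ∈ L) (hk : k ∈ K) (e : a * k * (a * k) = 1) :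
    a * a = 1 ∧ k * k = 1 := by
  refine h.uniq (mul_mem ha ha) (one_mem _) (mul_mem hk hk) (one_mem _) ?_
  calc _ = a * (a * k) * k := by group
    _ = _ := by rw [h.cm a ha k hk]; simpa only [mul_assoc, mul_one] using e

theorem Pair.norm (h : Pair L K) {t g : G} (ht : t ∈ K) (t2 : t * t = 1) (t1 : t ≠ 1) (hg : g * t = t * g) :
    (∀ x ∈ L, g * x * g⁻¹ ∈ L) ∧ ∀ x ∈ K, g * x * g⁻¹ ∈ K := by
  obtain ⟨a, ha, k, hk, rfl⟩ := h.dec t ht t2 t1 g hg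
  refine ⟨fun x hx => ?_, fun x hx => ?_⟩
  · rw [show a * k * x * (a * k)⁻¹ = a * (k * x) * k⁻¹ * a⁻¹ by group, ← h.cm x hx k hk]
    simpa [mul_assoc] using mul_mem (mul_mem ha hx) (inv_mem ha)
  · rw [show a * k * x * (a * k)⁻¹ = a * (k * x * k⁻¹) * a⁻¹ by group,
      h.cm a ha _ (mul_mem (mul_mem hk hx) (inv_mem hk)), mul_inv_cancel_right]
    exact mul_mem (mul_mem hk hx) (inv_mem hk)

/-- The 2-subgroups of `K` have order at most 2. -/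
def Two (K : Subgroup G) : Prop :=
  ∀ P ≤ K, IsPGroup 2 P → ∀ b ∈ P, ∀ c ∈ P, b ≠ 1 → c ≠ 1 → b = c

theorem Two.of_cj {g : G} (h : Two (cj g K)) : Two K := fun P hP pP b hb c hc b1 c1 => by
  simpa using h _ (cj_mono hP) (isPGroup_cj pP g) _ (conj_mem_cj.2 hb) _ (conj_mem_cj.2 hc) (mt conj_eq_one.1 b1)
    (mt conj_eq_one.1 c1)

/-- Commuting involutions `a k ∈ K'` and `a' k' ∈ K`. -/
structure Cfg (L K L' K' : Subgroup G) (a k a' k' : G) : Prop where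
  p : Pair L K
  p' : Pair L' K'
  tight : ∀ c ∈ K, c ∈ K' → ∀ n, c ^ 2 ^ n = 1 → c = 1
  aL : a ∈ L
  kK : k ∈ K
  aL' : a' ∈ L'
  kK' : k' ∈ K'
  uK : a * k ∈ K'
  tK : a' * k' ∈ K
  uu : a * k * (a * k) = 1
  tt : a' * k' * (a' * k') = 1
  u1 : a * k ≠ 1
  t1 : a' * k' ≠ 1
  cm : a * k * (a' * k') = a' * k' * (a * k)

namespace Cfg

variable {a k a' k' : G} (h : Cfg L K L' K' a k a' k')
include h

theorem symm : Cfg L' K' L K a' k' a k :=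
  ⟨h.p', h.p, fun c h1 h2 => h.tight c h2 h1, h.aL', h.kK', h.aL, h.kK, h.tK, h.uK, h.tt, h.uu, h.t1, h.u1, h.cm.symm⟩

theorem aa : a * a = 1 := (h.p.sq h.aL h.kK h.uu).1

theorem kk : k * k = 1 := (h.p.sq h.aL h.kK h.uu).2

theorem a1 : a ≠ 1 := fun e => h.u1 (h.tight _ (by simpa [e] using h.kK) h.uK 1 (by simpa [pow_two] using h.uu))

theorem kt : k * (a' * k') = a' * k' * k := by
  simpa using (h.p.comm h.aL (one_mem _) h.kK h.tK (by simpa using h.cm)).2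

/-- `C_L(a)` centralises both involutions. -/
theorem cA {p : G} (hp : p ∈ L) (e : p * a = a * p) : p * (a * k) = a * k * p ∧ p * (a' * k') = a' * k' * p :=
  ⟨by rw [← mul_assoc, e, mul_assoc, h.p.cm p hp k h.kK, mul_assoc], h.p.cm p hp _ h.tK⟩

theorem dec {y : G} (h1 : y * (a * k) = a * k * y) (h2 : y * (a' * k') = a' * k' * y) :
    ∃ p ∈ L, ∃ c ∈ K, y = p * c ∧ p * a = a * p := by
  obtain ⟨p, hp, c, hc, rfl⟩ := h.p.dec _ h.tK h.tt h.t1 y h2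
  exact ⟨p, hp, c, hc, rfl, (h.p.comm hp h.aL hc h.kK h1).1⟩

/-- If a subgroup `D` normalised by `C(a k)` meets `C_L(a)` trivially, its elements that centralise both involutions
centralise `C_L(a)`. -/
theorem alt {D : Subgroup G} (hD : ∀ g, g * (a * k) = a * k * g → ∀ x ∈ D, g * x * g⁻¹ ∈ D)
    (h1 : L ⊓ centralizer {a} ⊓ D = ⊥) :
    ∀ b ∈ D, b * (a * k) = a * k * b → b * (a' * k') = a' * k' * b → ∀ p ∈ L, p * a = a * p → p * b = b * p := by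
  have m : ∀ {p}, p ∈ L → p * a = a * p → p ∈ L ⊓ centralizer {a} := fun hp e => ⟨hp, mem_cen.2 e⟩
  intro b hb h2 h3 p hp e
  obtain ⟨q, hq, c, hc, rfl, e'⟩ := h.dec h2 h3
  have h4 : p * (q * c) * p⁻¹ * (q * c)⁻¹ = p * q * p⁻¹ * q⁻¹ := by
    calc _ = p * q * (c * p⁻¹) * c⁻¹ * q⁻¹ := by group
      _ = _ := by rw [← h.p.cm _ (inv_mem hp) c hc]; group
  have h5 : p * (q * c) * p⁻¹ * (q * c)⁻¹ ∈ L ⊓ centralizer {a} ⊓ D :=
    mem_inf.2 ⟨h4 ▸ mul_mem (mul_mem (mul_mem (m hp e) (m hq e')) (inv_mem (m hp e))) (inv_mem (m hq e')),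
      mul_mem (hD p (h.cA hp e).1 _ hb) (inv_mem hb)⟩
  rw [h1, mem_bot, mul_inv_eq_one, mul_inv_eq_iff_eq_mul] at h5
  exact h5

/-- The intersection of `C_L(a)` with a subgroup normalised by `C(a k)` is normal in `C_L(a)`. -/
theorem nrm {D : Subgroup G} (hD : ∀ g, g * (a * k) = a * k * g → ∀ x ∈ D, g * x * g⁻¹ ∈ D) :
    ∀ g ∈ L, g * a = a * g → ∀ n ∈ L ⊓ centralizer {a} ⊓ D, g * n * g⁻¹ ∈ L ⊓ centralizer {a} ⊓ D := by
  have m : ∀ {p}, p ∈ L → p * a = a * p → p ∈ L ⊓ centralizer {a} := fun hp e => ⟨hp, mem_cen.2 e⟩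
  exact fun g hg e n hn =>
    mem_inf.2 ⟨mul_mem (mul_mem (m hg e) (mem_inf.1 hn).1) (inv_mem (m hg e)), hD g (h.cA hg e).1 n hn.2⟩

theorem mem_K {b : G} (h2 : b * (a * k) = a * k * b) (h3 : b * (a' * k') = a' * k' * b)
    (h4 : ∀ p ∈ L, p * a = a * p → p * b = b * p) : b ∈ K ∨ a * b ∈ K := by
  obtain ⟨q, hq, c, hc, rfl, -⟩ := h.dec h2 h3
  rcases h.p.cc a h.aL h.aa h.a1 q hq fun p hp e =>
    (h.p.comm hp hq (one_mem _) hc (by simpa using h4 p hp e)).1 with rfl | rfl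
  · exact .inl (by simpa using hc)
  · exact .inr (by rwa [← mul_assoc, h.aa, one_mul])

theorem two [Finite G]
    (h1 : ∀ b ∈ K', b * (a * k) = a * k * b → b * (a' * k') = a' * k' * b → b ∈ K ∨ a * b ∈ K) : Two K' := by
  have h2 : ∀ b ∈ K', b * (a' * k') = a' * k' * b → b * (a * k) = a * k * b → ∀ n m, b ^ 2 ^ n = 1 →
      ((a * k)⁻¹ * b) ^ 2 ^ m = 1 → b = 1 ∨ b = a * k := fun b hb c1 c2 n m e1 e2 => by
    rcases h1 b hb c2 c1 with h3 | h3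
    · exact .inl (h.tight b h3 hb n e1)
    · refine .inr (inv_mul_eq_one.1 (h.tight _ ?_ (mul_mem (inv_mem h.uK) hb) m e2)).symm
      rw [mul_inv_rev, inv_eq_of_mul_eq_one_right h.aa, mul_assoc]
      exact mul_mem (inv_mem h.kK) h3
  have c1 : Commute k' (a * k) := h.symm.kt
  have h3 := h2 k' h.kK' (by rw [← mul_assoc, ← h.p'.cm _ h.aL' _ h.kK']) c1 1 1 (by simpa [pow_two] using h.symm.kk)
    (by rw [pow_one, c1.symm.inv_left.mul_pow, inv_pow, pow_two, pow_two, h.uu, h.symm.kk]; simp)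
  obtain ⟨R, hR, hle⟩ := exists_isSylIn (zp2 h.uu) (zpowers_le.2 h.uK)
  have uR := hle (mem_zpowers _)
  have h4 : ∀ b ∈ R, b * (a * k) = a * k * b → b = 1 ∨ b = a * k := fun b hb c => by
    obtain ⟨n, hn⟩ := hR.isPGroup ⟨b, hb⟩
    obtain ⟨m, hm⟩ := hR.isPGroup ⟨_, mul_mem (inv_mem uR) hb⟩
    refine h2 b (hR.le hb) (Commute.mul_right (h.p'.cm _ h.aL' _ (hR.le hb)).symm ?_) c n m (congrArg Subtype.val hn)
      (congrArg Subtype.val hm)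
    rcases h3 with e | e <;> rw [e]
    exacts [Commute.one_right b, c]
  have : Nontrivial R := ⟨⟨⟨_, uR⟩, 1, fun e => h.u1 (congrArg Subtype.val e)⟩⟩
  have := hR.isPGroup.center_nontrivial
  obtain ⟨⟨w, hw⟩, w1⟩ := exists_ne (1 : center R)
  have h5 : (w : G) = a * k := (h4 w w.2 (congrArg Subtype.val (mem_center_iff.1 hw ⟨_, uR⟩)).symm).resolve_left
    fun e => w1 (Subtype.ext (Subtype.ext e))
  have h6 : ∀ b ∈ R, b ≠ 1 → b = a * k := fun b hb b1 =>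
    (h4 b hb (h5 ▸ congrArg Subtype.val (mem_center_iff.1 hw ⟨b, hb⟩))).resolve_left b1
  intro P hP pP b hb c hc b1 c1
  obtain ⟨g, -, hg⟩ := hR.exists_cj_le pP hP
  simpa using (h6 _ (cj_le_iff.1 hg b hb) (mt conj_eq_one.1 b1)).trans
    (h6 _ (cj_le_iff.1 hg c hc) (mt conj_eq_one.1 c1)).symm

theorem com (h1 : L ⊓ centralizer {a} ⊓ L' = ⊥) {p q : G} (hp : p ∈ L) (hq : q ∈ L) (ep : p * a = a * p) (eq : q * a = a * q) :
    p * q * p⁻¹ * q⁻¹ ∈ K' := by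
  have h2 := h.alt (fun g hg => (h.p'.norm h.uK h.uu h.u1 hg).1) h1
  have h3 : ∀ p ∈ L, p * a = a * p → ∃ b ∈ L', ∃ c ∈ K', p = b * c ∧ (b = 1 ∨ b = a') := fun p hp e => by
    rcases h.symm.mem_K (h.cA hp e).2 (h.cA hp e).1 fun b hb e' =>
      (h2 b hb (h.symm.cA hb e').2 (h.symm.cA hb e').1 p hp e).symm with h4 | h4
    · exact ⟨1, one_mem _, p, h4, (one_mul _).symm, .inl rfl⟩
    · exact ⟨a', h.aL', _, h4, by rw [← mul_assoc, h.symm.aa, one_mul], .inr rfl⟩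
  obtain ⟨b, hb, c, hc, rfl, e⟩ := h3 p hp ep
  obtain ⟨b', hb', c', hc', rfl, e'⟩ := h3 q hq eq
  have h4 : b * b' = b' * b := by rcases e with rfl | rfl <;> rcases e' with rfl | rfl <;> simp
  have h5 : b * c * (b' * c') * (b * c)⁻¹ * (b' * c')⁻¹ = c * c' * c⁻¹ * c'⁻¹ := by
    have h6 := mul_mem (mul_mem (mul_mem hc hc') (inv_mem hc)) (inv_mem hc')
    calc _ = b * (c * b') * (c' * c⁻¹) * (b⁻¹ * c'⁻¹) * b'⁻¹ := by group
      _ = b * b' * (c * c' * c⁻¹ * c'⁻¹) * (b' * b)⁻¹ := by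
        rw [← h.p'.cm b' hb' c hc, h.p'.cm _ (inv_mem hb) _ (inv_mem hc')]; group
      _ = _ := by rw [h.p'.cm _ (mul_mem hb hb') _ h6, h4, mul_inv_cancel_right]
  exact h5 ▸ mul_mem (mul_mem (mul_mem hc hc') (inv_mem hc)) (inv_mem hc')

end Cfg

theorem exists_cfg (p : Pair L K) (p' : Pair L' K') (tight : ∀ c ∈ K, c ∈ K' → ∀ n, c ^ 2 ^ n = 1 → c = 1)
    {a k t : G} (aL : a ∈ L) (kK : k ∈ K) (uK : a * k ∈ K') (uu : a * k * (a * k) = 1) (u1 : a * k ≠ 1) (tK : t ∈ K)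
    (tt : t * t = 1) (t1 : t ≠ 1) (c : t * k = k * t) : ∃ a' k', Cfg L K L' K' a k a' k' := by
  have c' : t * (a * k) = a * k * t := Commute.mul_right (p.cm a aL t tK).symm c
  obtain ⟨a', h1, k', h2, rfl⟩ := p'.dec _ uK uu u1 t c'
  exact ⟨a', k', p, p', tight, aL, kK, h1, h2, uK, tK, uu, tt, u1, t1, c'.symm⟩

variable [Finite G]

theorem Two.syl (h : Two K) {t : G} (tK : t ∈ K) (tt : t * t = 1) (t1 : t ≠ 1) : IsSylIn 2 (zpowers t) K :=
  ⟨zpowers_le.2 tK, zp2 tt, fun Q hQ h1 h2 => le_antisymm (fun q hq => by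
    by_cases e : q = 1
    · exact e ▸ one_mem _
    · exact h Q h1 hQ q hq t (h2 (mem_zpowers t)) e t1 ▸ mem_zpowers t) h2⟩

theorem exists_O (p : Pair L K) (h : Two K) {t : G} (tK : t ∈ K) (tt : t * t = 1) (t1 : t ≠ 1) :
    ∃ O : Subgroup G, O ≤ K ⊓ centralizer {t} ∧ Odd (Nat.card O) ∧
      ∀ g, g * t = t * g → ∃ a ∈ L, ∃ o ∈ O, g = a * o ∨ g = t * (a * o) := by
  have hR := (h.syl tK tt t1).mono (K := K ⊓ centralizer {t}) (zpowers_le.2 ⟨tK, mem_cen.2 rfl⟩) inf_le_left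
  have h2 : ∀ v ∈ zpowers t, v = 1 ∨ v = t := fun v hv => or_iff_not_imp_left.2 fun e =>
    h _ (zpowers_le.2 tK) (zp2 tt) v hv t (mem_zpowers t) e t1
  obtain ⟨O, o1, -, o3, o4⟩ := exists_complement hR fun g hg _ v hv => by
    rcases h2 v hv with rfl | rfl
    exacts [by simp, mem_cen.1 hg.2]
  refine ⟨O, o1, Nat.coprime_two_right.1 o3, fun g hg => ?_⟩
  obtain ⟨a, ha, k, hk, rfl⟩ := p.dec t tK tt t1 g hg
  have c : Commute k t := (p.comm ha (one_mem _) hk tK (by simpa using hg)).2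
  obtain ⟨n, j, hj, e⟩ := Nat.exists_eq_two_pow_mul_odd (orderOf_pos k).ne'
  have h3 : ∀ y : G, y ^ j = 1 → (orderOf y).Coprime 2 := fun y hy =>
    (Nat.coprime_two_right.2 hj).coprime_dvd_left (orderOf_dvd_of_pow_eq_one hy)
  obtain ⟨g, hg', h4⟩ := exists_conj_mem_syl hR (x := k ^ j) (pow_mem (mem_inf.2 ⟨hk, mem_cen.2 c⟩) j) (k := n) (by
    rw [← pow_mul, mul_comm, ← e, pow_orderOf_eq_one])
  rcases h2 _ h4 with h4 | h4
  · exact ⟨a, ha, _, o4 k ⟨hk, mem_cen.2 c⟩ (h3 k (conj_eq_one.1 h4)), .inl rfl⟩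
  · replace h4 : k ^ j = t := by
      rw [← mem_cen'.1 hg'.2] at h4
      simpa using h4
    refine ⟨a, ha, _, o4 (t * k) (mul_mem ⟨tK, mem_cen.2 rfl⟩ ⟨hk, mem_cen.2 c⟩) (h3 _ ?_),
      .inr (by rw [← mul_assoc a, p.cm a ha t tK, mul_assoc t, ← mul_assoc t t, tt, one_mul])⟩
    obtain ⟨i, rfl⟩ := hj
    rw [c.symm.mul_pow, h4, pow_succ, pow_mul, pow_two, tt, one_pow, one_mul, tt]

end Cfsg.Agent.J1S.ZeroAux
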